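import Mathlib
import Cfsg.Prelude.Def_Transfer
import Cfsg.Agent.Lib.Helper69.ClassSize
import Cfsg.Agent.Lib.Helper69.SmallClasses
import Cfsg.Agent.Lib.Helper69.Split1

/-!
# Groups with square-free class sizes: definitions and inheritance
-/

namespace Cfsg.Agent.Lib.Helper19.SqFree

open Subgroup Cfsg.Agent.Lib.Helper69

variable {G : Type*} [Group G]

/-- all conjugacy class sizes are square-free -/
def SF (G : Type*) [Group G] : Prop :=
  ∀ x : G, Squarefree (centralizer ({x} : Set G)).index

/-- `p` is at most every prime divisor of `#G`, and `p²` divides no class size of a `p'`-element -/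
def Hyp (p : ℕ) (G : Type*) [Group G] : Prop :=
  (∀ r : ℕ, r.Prime → r ∣ Nat.card G → p ≤ r) ∧
    ∀ y : G, ¬ p ∣ orderOf y → ¬ p ^ 2 ∣ (centralizer ({y} : Set G)).index

theorem relIndex_cent_dvd [Finite G] (V : Subgroup G) [V.Normal] (g : G) :
    (centralizer ({g} : Set G)).relIndex V ∣ (centralizer ({g} : Set G)).index :=
  relIndex_dvd_index_of_normal_right _ V

theorem index_cent_subgroup_dvd [Finite G] (N : Subgroup G) [N.Normal] (x : N) :
    (centralizer ({x} : Set N)).index ∣ (centralizer ({(x : G)} : Set G)).index := by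
  have h := centralizer_singleton_subtype N (x : G) x.2
  have h' : centralizer ({x} : Set N) = (centralizer ({(x : G)} : Set G)).subgroupOf N := h
  rw [h']
  exact relIndex_cent_dvd N (x : G)

theorem index_cent_quotient_dvd [Finite G] (N : Subgroup G) [N.Normal] (x : G) :
    (centralizer ({(x : G ⧸ N)} : Set (G ⧸ N))).index ∣ (centralizer ({x} : Set G)).index := by
  have h1 : centralizer ({x} : Set G) ≤
      (centralizer ({(x : G ⧸ N)} : Set (G ⧸ N))).comap (QuotientGroup.mk' N) := by
    intro g hg
    rw [mem_comap, mem_cent_singleton]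
    rw [mem_cent_singleton] at hg
    have := congrArg (QuotientGroup.mk' N) hg
    simpa using this
  have h2 := index_dvd_of_le h1
  rwa [index_comap_of_surjective _ (QuotientGroup.mk'_surjective N)] at h2

theorem SF.subgroup [Finite G] (h : SF G) (N : Subgroup G) [N.Normal] : SF N :=
  fun x => (h (x : G)).squarefree_of_dvd (index_cent_subgroup_dvd N x)

theorem SF.quotient [Finite G] (h : SF G) (N : Subgroup G) [N.Normal] : SF (G ⧸ N) := by
  intro x
  induction x using QuotientGroup.induction_on with
  | H x => exact (h x).squarefree_of_dvd (index_cent_quotient_dvd N x)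

theorem SF.not_sq_dvd (h : SF G) {p : ℕ} (hp : p.Prime) (x : G) :
    ¬ p ^ 2 ∣ (centralizer ({x} : Set G)).index := by
  intro hd
  have := h x p (by rwa [← sq])
  exact hp.one_lt.ne' (Nat.isUnit_iff.1 this)

theorem Hyp.subgroup [Finite G] {p : ℕ} (h : Hyp p G) (N : Subgroup G) [N.Normal] : Hyp p N := by
  refine ⟨fun r hr hd => h.1 r hr (hd.trans (card_subgroup_dvd_card N)), fun y hy hd => ?_⟩
  refine h.2 (y : G) ?_ (hd.trans (index_cent_subgroup_dvd N y))
  rwa [Subgroup.orderOf_coe]

theorem Hyp.quotient [Finite G] {p : ℕ} [Fact p.Prime] (h : Hyp p G) (N : Subgroup G) [N.Normal] :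
    Hyp p (G ⧸ N) := by
  refine ⟨fun r hr hd => h.1 r hr (hd.trans (card_quotient_dvd_card N)), fun y hy hd => ?_⟩
  induction y using QuotientGroup.induction_on with
  | H y =>
    obtain ⟨a, b, hab, ⟨k, hk⟩, hb⟩ := exists_p_decomp p y
    -- the image of `y ^ a` is a `p`-element which is a power of a `p'`-element
    have h1 : ((y ^ a : G) : G ⧸ N) = 1 := by
      have e1 : ((y ^ a : G) : G ⧸ N) ^ (p ^ k) = 1 := by
        rw [← QuotientGroup.mk_pow, hk]; rfl
      have e2 : ((y ^ a : G) : G ⧸ N) ^ orderOf (y : G ⧸ N) = 1 := by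
        rw [QuotientGroup.mk_pow, ← pow_mul, mul_comm, pow_mul, pow_orderOf_eq_one, one_pow]
      have hc : (p ^ k).Coprime (orderOf (y : G ⧸ N)) :=
        Nat.Coprime.pow_left k ((Nat.Prime.coprime_iff_not_dvd Fact.out).2 hy)
      have := pow_gcd_eq_one.mpr ⟨e1, e2⟩
      rwa [hc.gcd_eq_one, pow_one] at this
    have h2 : ((y ^ b : G) : G ⧸ N) = (y : G ⧸ N) := by
      have := congrArg (fun g : G => (g : G ⧸ N)) hab
      simp only [QuotientGroup.mk_mul] at this
      rwa [h1, one_mul] at this
    rw [← h2] at hd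
    exact h.2 (y ^ b) hb (hd.trans (index_cent_quotient_dvd N (y ^ b)))

end Cfsg.Agent.Lib.Helper19.SqFree
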