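import Mathlib
import Cfsg.Prelude.Def_Transfer
import Cfsg.Prelude.Def_SolvableStructure
import Cfsg.Agent.Lib.Helper19.SqFree.Defs
import Cfsg.Agent.Lib.Helper21.SqFreeC2
import Cfsg.Agent.Lib.Helper21.SqFreeC3
import Cfsg.Agent.Lib.Helper21.SqFreeP4
import Cfsg.Agent.Lib.Helper7.SqFreeQ1
import Cfsg.Agent.Lib.Helper7.SqFreeQ3
import Cfsg.Agent.Lib.Helper64.SqFreeP2
import Cfsg.Agent.Lib.Helper64.SqFreeP3
import Cfsg.Agent.Lib.Helper64.SqFreeP6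
import Cfsg.Agent.Lib.Helper64.SqFreeC1
import Cfsg.Agent.Lib.Helper64.SqFreeQ4a
import Cfsg.Agent.Lib.Helper26.SqFreeQ2

namespace Cfsg.Agent.Lib.Helper19.SqFree

open Subgroup

variable {G : Type*} [Group G]

/-- P2 -/
theorem Hyp.centralizer [Finite G] {p : ℕ} [Fact p.Prime] (h : Hyp p G)
    (hab : ∀ Q : Sylow p G, ∀ a ∈ Q, ∀ b ∈ Q, a * b = b * a) (t : G) (ht : ∃ k : ℕ, t ^ p ^ k = 1) :
    Hyp p (centralizer ({t} : Set G)) :=
  Cfsg.Agent.Lib.Helper64.SqFree.hyp_centralizer h hab t ht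

/-- P3 -/
theorem commute_of_normal_pgroup [Finite G] {p : ℕ} [Fact p.Prime] (h : Hyp p G) (N : Subgroup G)
    [N.Normal] (hN : IsPGroup p N) (y : G) (hy : ¬ p ∣ orderOf y) : ∀ x ∈ N, x * y = y * x :=
  Cfsg.Agent.Lib.Helper64.SqFree.commute_of_normal_pgroup h N hN y hy

/-- P4 -/
theorem commutator_sylow_normal [Finite G] {p : ℕ} [Fact p.Prime]
    (h : ∀ y : G, ¬ p ∣ orderOf y → ¬ p ^ 2 ∣ (centralizer ({y} : Set G)).index) (P : Sylow p G) :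
    (⁅(P : Subgroup G), (P : Subgroup G)⁆).Normal :=
  Cfsg.Agent.Lib.Helper21.SqFree.commutator_sylow_normal h P

/-- P6a -/
theorem normalizer_le_centralizer_of_npc [Finite G] {p : ℕ} [Fact p.Prime] (P : Sylow p G)
    (hab : ∀ a ∈ P, ∀ b ∈ P, a * b = b * a) (L : Subgroup G) (hPL : (P : Subgroup G) ≤ L)
    (hL : Cfsg.HasNormalPComplement p L) :
    ∀ n ∈ L, n ∈ normalizer ((P : Subgroup G) : Set G) → n ∈ Subgroup.centralizer ((P : Subgroup G) : Set G) :=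
  Cfsg.Agent.Lib.Helper64.SqFree.normalizer_le_centralizer_of_npc P hab L hPL hL

/-- C1 -/
theorem card_regular_le_singular [Finite G] {p : ℕ} [Fact p.Prime]
    (hcomm : ∀ y : G, ¬ p ∣ orderOf y → ∃ s : G, s ≠ 1 ∧ (∃ k : ℕ, s ^ p ^ k = 1) ∧ s * y = y * s) :
    Nat.card {g : G // ¬ p ∣ orderOf g} ≤ Nat.card {g : G // p ∣ orderOf g} :=
  Cfsg.Agent.Lib.Helper64.SqFree.card_regular_le_singular hcomm

/-- C2 -/
theorem card_singular_mul_card_sylow [Finite G] {p : ℕ} [Fact p.Prime] (P : Sylow p G)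
    (hab : ∀ Q : Sylow p G, ∀ a ∈ Q, ∀ b ∈ Q, a * b = b * a)
    (hnpc : ∀ s : G, s ≠ 1 → (∃ k : ℕ, s ^ p ^ k = 1) →
      Cfsg.HasNormalPComplement p (centralizer ({s} : Set G))) :
    Nat.card {g : G // p ∣ orderOf g} * Nat.card P =
      Nat.card {x : G × G // x.1 ≠ 1 ∧ (∃ k : ℕ, x.1 ^ p ^ k = 1) ∧ x.2 * x.1 = x.1 * x.2} :=
  Cfsg.Agent.Lib.Helper21.SqFree.card_singular_mul_card_sylow P hab hnpc

/-- C3 -/
theorem three_mul_card_pairs_le [Finite G] {p : ℕ} [Fact p.Prime] (P : Sylow p G)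
    (h3 : ∀ s ∈ P, s ≠ 1 → 3 ≤ {x : G | x ∈ P ∧ ∃ g : G, g * s * g⁻¹ = x}.ncard) :
    3 * Nat.card {x : G × G // x.1 ≠ 1 ∧ (∃ k : ℕ, x.1 ^ p ^ k = 1) ∧ x.2 * x.1 = x.1 * x.2} ≤
      (Nat.card P - 1) * Nat.card G :=
  Cfsg.Agent.Lib.Helper21.SqFree.three_mul_card_pairs_le P h3

/-- Q1 (Knoche) -/
theorem card_commutator_dvd_of_breadth_one {P : Type*} [Group P] [Finite P] {p : ℕ} [Fact p.Prime]
    (hP : IsPGroup p P) (h : ∀ x : P, ¬ p ^ 2 ∣ (centralizer ({x} : Set P)).index) :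
    Nat.card (commutator P) ∣ p :=
  Cfsg.Agent.Lib.Helper7.SqFree.card_commutator_dvd_of_breadth_one hP h

/-- Q2 -/
theorem exists_normal_prime_card_le [Finite G] (hs : Group.IsSolvable G) (h : SF G) (R : Subgroup G)
    [R.Normal] (hR : R ≠ ⊥) : ∃ N : Subgroup G, N.Normal ∧ N ≤ R ∧ (Nat.card N).Prime :=
  Cfsg.Agent.Lib.Helper26.SqFree.exists_normal_prime_card_le hs h R hR

/-- Q3 core -/
theorem core_false [Finite G] (h : SF G) {p : ℕ} [Fact p.Prime]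
    (hT : Nat.card (commutator G) = p ^ 2) : False :=
  Cfsg.Agent.Lib.Helper7.SqFree.core_false h hT

/-- Q4a -/
theorem isCyclic_of_nilpotent_squarefree {H : Type*} [Group H] [Finite H] [Group.IsNilpotent H]
    (h : Squarefree (Nat.card H)) : IsCyclic H :=
  Cfsg.Agent.Lib.Helper64.SqFree.isCyclic_of_nilpotent_squarefree h

end Cfsg.Agent.Lib.Helper19.SqFree
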