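import Mathlib
import Cfsg.Agent.Lib.Helper19.SqFree.Pieces
import Cfsg.Agent.Lib.Lead.Residual
import Cfsg.Agent.Lib.Helper2.PComplement
import Cfsg.Agent.Lib.Helper34.NPC

/-!
# `p`-nilpotency for the smallest prime when `p²` divides no class size of a `p'`-element
-/

namespace Cfsg.Agent.Lib.Helper19.SqFree

open Subgroup Cfsg Cfsg.Agent.Lib
open scoped commutatorElement

universe u

theorem counting {G : Type*} [Group G] [Finite G] {p : ℕ} [Fact p.Prime] (P : Sylow p G)
    (hab : ∀ Q : Sylow p G, ∀ a ∈ Q, ∀ b ∈ Q, a * b = b * a)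
    (hnpc : ∀ s : G, s ≠ 1 → (∃ k : ℕ, s ^ p ^ k = 1) →
      Cfsg.HasNormalPComplement p (centralizer ({s} : Set G)))
    (hcomm : ∀ y : G, ¬ p ∣ orderOf y → ∃ s : G, s ≠ 1 ∧ (∃ k : ℕ, s ^ p ^ k = 1) ∧ s * y = y * s)
    (h3 : ∀ s ∈ P, s ≠ 1 → 3 ≤ {x : G | x ∈ P ∧ ∃ g : G, g * s * g⁻¹ = x}.ncard) : False := by
  classical
  have c1 := card_regular_le_singular hcomm
  have c2 := card_singular_mul_card_sylow P hab hnpc
  have c3 := three_mul_card_pairs_le P h3
  have hsum : Nat.card {g : G // p ∣ orderOf g} + Nat.card {g : G // ¬ p ∣ orderOf g} =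
      Nat.card G := by
    rw [← Nat.card_sum]
    exact Nat.card_congr (Equiv.sumCompl _)
  have hG : 0 < Nat.card G := Nat.card_pos
  have hP : 0 < Nat.card P := Nat.card_pos
  rw [← c2] at c3
  set a := Nat.card {g : G // p ∣ orderOf g}
  set b := Nat.card {g : G // ¬ p ∣ orderOf g}
  obtain ⟨q, hq⟩ : ∃ q, Nat.card P = q + 1 := ⟨Nat.card P - 1, by omega⟩
  rw [hq, ← hsum] at c3
  simp only [Nat.add_sub_cancel] at c3
  have h1 : q * (a + b) ≤ q * (2 * a) := Nat.mul_le_mul_left q (by omega)
  have h2 : 3 * (a * (q + 1)) ≤ q * (2 * a) := c3.trans h1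
  have h4 : a = 0 := by
    by_contra ha
    have : 0 < a := Nat.pos_of_ne_zero ha
    nlinarith
  omega

theorem card_lt_of_ne_top {G : Type*} [Group G] [Finite G] (N : Subgroup G) (h : N ≠ ⊤) :
    Nat.card N < Nat.card G :=
  lt_of_le_of_ne (card_le_card_group N) (fun e => h (eq_top_of_card_eq N e))

theorem card_quot_lt {G : Type*} [Group G] [Finite G] (N : Subgroup G) (h : N ≠ ⊥) :
    Nat.card (G ⧸ N) < Nat.card G := by
  have h1 := card_eq_card_quotient_mul_card_subgroup N
  have h2 : 1 < Nat.card N := by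
    rw [Finite.one_lt_card_iff_nontrivial]
    exact (nontrivial_iff_ne_bot N).2 h
  have h3 : 0 < Nat.card (G ⧸ N) := Nat.card_pos
  rw [h1]
  nlinarith

theorem tstar (p : ℕ) [Fact p.Prime] : ∀ (n : ℕ) (G : Type u) [Group G] [Finite G],
    Nat.card G = n → Hyp p G → HasNormalPComplement p G := by
  intro n
  induction n using Nat.strong_induction_on with
  | _ n ih =>
  intro G _ _ hn h
  by_contra hno
  have hp : p.Prime := Fact.out
  have ihS : ∀ N : Subgroup G, N ≠ ⊤ → Hyp p N → HasNormalPComplement p N := fun N hne hN =>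
    ih (Nat.card N) (hn ▸ card_lt_of_ne_top N hne) N rfl hN
  have ihN : ∀ N : Subgroup G, N.Normal → N ≠ ⊤ → HasNormalPComplement p N := fun N hN hne =>
    haveI := hN
    ihS N hne (h.subgroup N)
  have ihQ : ∀ N : Subgroup G, ∀ _ : N.Normal, N ≠ ⊥ → HasNormalPComplement p (G ⧸ N) :=
    fun N hN hne => ih (Nat.card (G ⧸ N)) (hn ▸ card_quot_lt N hne) (G ⧸ N) rfl (h.quotient N)
  -- `G` is generated by its `p'`-elements
  have hR : pResidual p G = ⊤ := by
    by_contra hR
    have h1 := ihN (pResidual p G) inferInstance hR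
    rw [Lead.hasNormalPComplement_iff_card_pResidual] at h1
    apply hno
    rw [Lead.hasNormalPComplement_iff_card_pResidual]
    have h2 := Helper2.map_pResidual_subtype_eq p (pResidual p G) le_rfl
    rw [← h2, card_map_of_injective (subtype_injective _)]
    exact h1
  -- no normal `p'`-subgroups
  have hD : ∀ D : Subgroup G, D.Normal → (Nat.card D).Coprime p → D = ⊥ := by
    intro D hDn hc
    by_contra hne
    exact hno (Helper34.hasNormalPComplement_of_quotient D hc (ihQ D hDn hne))
  -- proper normal subgroups are `p`-groups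
  have hNp : ∀ N : Subgroup G, N.Normal → N ≠ ⊤ → IsPGroup p N := by
    intro N hN hne
    haveI := hN
    have h1 := ihN N hN hne
    rw [Lead.hasNormalPComplement_iff_card_pResidual] at h1
    have h2 : ((pResidual p N).map N.subtype).Normal :=
      ConjAct.normal_of_characteristic_of_normal
    have h3 := hD _ h2 (by rwa [card_map_of_injective (subtype_injective _)])
    have h4 : pResidual p N = ⊥ := (map_eq_bot_iff_of_injective _ (subtype_injective N)).1 h3
    have h5 : IsPGroup p (N ⧸ pResidual p N) := Lead.isPGroup_quotient_pResidual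
    intro g
    obtain ⟨k, hk⟩ := h5 (g : N ⧸ pResidual p N)
    refine ⟨k, ?_⟩
    rw [← QuotientGroup.mk_pow, QuotientGroup.eq_one_iff, h4, mem_bot] at hk
    exact hk
  -- `G` is simple
  have hsimple : ∀ N : Subgroup G, N.Normal → N ≠ ⊤ → N = ⊥ := by
    intro N hN hne
    haveI := hN
    by_contra hbot
    have hNp' := hNp N hN hne
    have h1 := ihQ N hN hbot
    rw [Lead.hasNormalPComplement_iff_card_pResidual] at h1
    have h2 : pResidual p (G ⧸ N) = ⊤ := by
      rw [eq_top_iff]
      have h3 : (pResidual p G).map (QuotientGroup.mk' N) ≤ pResidual p (G ⧸ N) := by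
        unfold pResidual
        rw [MonoidHom.map_closure, closure_le]
        rintro _ ⟨g, hg, rfl⟩
        apply Subgroup.subset_closure
        exact Nat.Coprime.coprime_dvd_left (orderOf_map_dvd _ g) hg
      rw [hR, ← MonoidHom.range_eq_map, MonoidHom.range_eq_top.2 (QuotientGroup.mk'_surjective N)]
        at h3
      exact h3
    rw [h2, card_top] at h1
    have hidx : ¬ p ∣ N.index := by
      rw [← Nat.Prime.coprime_iff_not_dvd hp]
      exact h1.symm
    have hcen : centralizer (N : Set G) = ⊤ := by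
      rw [eq_top_iff, ← hR]
      unfold pResidual
      rw [closure_le]
      intro y hy
      have hy' : ¬ p ∣ orderOf y := by
        rw [← Nat.Prime.coprime_iff_not_dvd hp]
        exact Nat.Coprime.symm hy
      rw [SetLike.mem_coe, mem_centralizer_iff]
      intro x hx
      exact commute_of_normal_pgroup h N hNp' y hy' x hx
    apply hno
    apply Helper2.hasNormalPComplement_of_normalizer_le_centralizer (hNp'.toSylow hidx)
    intro x _
    have : x ∈ centralizer (N : Set G) := hcen ▸ mem_top x
    exact this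
  have hQtop : ∀ Q : Sylow p G, (Q : Subgroup G) ≠ ⊤ := by
    intro Q hQ
    apply hno
    apply Lead.hasNormalPComplement_of_isPGroup
    have := Q.2
    rw [hQ] at this
    exact this.of_equiv topEquiv
  have hab : ∀ Q : Sylow p G, ∀ a ∈ Q, ∀ b ∈ Q, a * b = b * a := by
    intro Q a ha b hb
    have h1 := commutator_sylow_normal h.2 Q
    have h2 : ⁅(Q : Subgroup G), (Q : Subgroup G)⁆ ≠ ⊤ := by
      intro h3
      apply hQtop Q
      rw [eq_top_iff, ← h3]
      exact commutator_le_self _
    have h3 := hsimple _ h1 h2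
    have h4 : ⁅a, b⁆ ∈ ⁅(Q : Subgroup G), (Q : Subgroup G)⁆ := commutator_mem_commutator ha hb
    rw [h3, mem_bot, commutatorElement_eq_one_iff_mul_comm] at h4
    exact h4
  let P : Sylow p G := default
  have hburn : ¬ normalizer ((P : Subgroup G) : Set G) ≤ centralizer ((P : Subgroup G) : Set G) :=
    fun hle => hno (Helper2.hasNormalPComplement_of_normalizer_le_centralizer P hle)
  have hPbot : (P : Subgroup G) ≠ ⊥ := by
    intro hP
    apply hburn
    rw [hP]
    intro x _
    rw [mem_centralizer_iff]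
    intro y hy
    have : y = 1 := hy
    rw [this, one_mul, mul_one]
  have hcent : ∀ s : G, s ≠ 1 → centralizer ({s} : Set G) ≠ ⊤ := by
    intro s hs htop
    have h1 : s ∈ center G := by
      rw [← Helper69.index_centralizer_eq_one_iff, htop, index_top]
    have h2 : center G = ⊤ := by
      by_contra h3
      have := hsimple _ inferInstance h3
      rw [this, mem_bot] at h1
      exact hs h1
    apply hburn
    intro x _
    rw [mem_centralizer_iff]
    intro y _
    have : x ∈ center G := h2 ▸ mem_top x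
    exact (mem_center_iff.1 this y)
  have hnpc : ∀ s : G, s ≠ 1 → (∃ k : ℕ, s ^ p ^ k = 1) →
      HasNormalPComplement p (centralizer ({s} : Set G)) := fun s hs hk =>
    ihS _ (hcent s hs) (h.centralizer hab s hk)
  have h3' : ∀ s ∈ P, s ≠ 1 → p + 1 ≤ {x : G | x ∈ P ∧ ∃ g : G, g * s * g⁻¹ = x}.ncard := by
    intro s hsP hs
    have hsk : ∃ k : ℕ, s ^ p ^ k = 1 := by
      obtain ⟨k, hk⟩ := P.2 ⟨s, hsP⟩
      exact ⟨k, congrArg Subtype.val hk⟩
    have hPL : (P : Subgroup G) ≤ centralizer ({s} : Set G) := by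
      intro x hx
      rw [Helper69.mem_cent_singleton]
      exact hab P x hx s hsP
    have hNL : ¬ normalizer ((P : Subgroup G) : Set G) ≤ centralizer ({s} : Set G) := by
      intro hle
      apply hburn
      intro x hx
      exact normalizer_le_centralizer_of_npc P (hab P) _ hPL (hnpc s hs hsk) x (hle hx) hx
    have hsN : s ∈ normalizer ((P : Subgroup G) : Set G) := le_normalizer hsP
    have hm := Helper69.relIndex_centralizer_eq_ncard (normalizer ((P : Subgroup G) : Set G)) s hsN
    set m := (centralizer ({s} : Set G)).relIndex (normalizer ((P : Subgroup G) : Set G)) with hmdef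
    have hm1 : m ≠ 1 := fun h1 => hNL (relIndex_eq_one.1 h1)
    have hmG : m ∣ Nat.card G := (relIndex_dvd_card _ _).trans (card_subgroup_dvd_card _)
    have hmp : ¬ p ∣ m := by
      intro hd
      have h1 : m ∣ (P : Subgroup G).relIndex (normalizer ((P : Subgroup G) : Set G)) :=
        relIndex_dvd_of_le_left _ hPL
      have h2 : (P : Subgroup G).relIndex (normalizer ((P : Subgroup G) : Set G)) ∣
          (P : Subgroup G).index := ⟨_, (relIndex_mul_index le_normalizer).symm⟩
      exact P.not_dvd_index (hd.trans (h1.trans h2))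
    have hr : (m.minFac).Prime := Nat.minFac_prime hm1
    have h1 : p ≤ m.minFac := h.1 _ hr ((Nat.minFac_dvd m).trans hmG)
    have h2 : p ≠ m.minFac := fun e => hmp (e ▸ Nat.minFac_dvd m)
    have hm0 : 0 < m := Nat.pos_of_ne_zero (fun h0 => by
      rw [h0] at hmG
      exact (Nat.card_pos (α := G)).ne' (Nat.eq_zero_of_zero_dvd hmG))
    have h4 : m.minFac ≤ m := Nat.minFac_le hm0
    have h5 : p + 1 ≤ m := by omega
    refine h5.trans ?_
    rw [hm]
    refine Set.ncard_le_ncard_of_injOn
      (fun x : normalizer ((P : Subgroup G) : Set G) => (x : G)) ?_ ?_ (Set.toFinite _)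
    · rintro _ ⟨g, rfl⟩
      refine ⟨?_, (g : G), rfl⟩
      exact (mem_normalizer_iff.1 g.2 s).1 hsP
    · exact fun x _ y _ hxy => Subtype.ext hxy
  obtain ⟨s₀, hs₀P, hs₀⟩ : ∃ s ∈ (P : Subgroup G), s ≠ 1 := by
    by_contra hcon
    push_neg at hcon
    exact hPbot ((eq_bot_iff_forall _).2 hcon)
  have hPcard : p + 1 ≤ Nat.card P := by
    refine (h3' s₀ hs₀P hs₀).trans ?_
    rw [← Nat.card_coe_set_eq]
    exact Nat.card_le_card_of_injective (fun x => (⟨x.1, x.2.1⟩ : P))
      (fun x y hxy => Subtype.ext (congrArg (fun z : P => (z : G)) hxy))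
  have hp2 : p ^ 2 ∣ Nat.card G := by
    obtain ⟨k, hk⟩ := P.2.exists_card_eq
    have hk' : Nat.card P = p ^ k := hk
    have h2k : 2 ≤ k := by
      by_contra hlt
      have : k = 0 ∨ k = 1 := by omega
      rcases this with rfl | rfl
      · rw [hk', pow_zero] at hPcard; have := hp.two_le; omega
      · rw [hk', pow_one] at hPcard; omega
    exact (pow_dvd_pow p h2k).trans (hk' ▸ card_subgroup_dvd_card (P : Subgroup G))
  have hcomm : ∀ y : G, ¬ p ∣ orderOf y →
      ∃ s : G, s ≠ 1 ∧ (∃ k : ℕ, s ^ p ^ k = 1) ∧ s * y = y * s := by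
    intro y hy
    have h1 := h.2 y hy
    have h2 : p ∣ Nat.card (centralizer ({y} : Set G)) := by
      by_contra hnd
      apply h1
      have h4 : (p ^ 2).Coprime (Nat.card (centralizer ({y} : Set G))) :=
        Nat.Coprime.pow_left 2 ((Nat.Prime.coprime_iff_not_dvd hp).2 hnd)
      apply h4.dvd_of_dvd_mul_left
      rw [card_mul_index]
      exact hp2
    obtain ⟨x, hx⟩ := exists_prime_orderOf_dvd_card' p h2
    refine ⟨(x : G), ?_, ⟨1, ?_⟩, ?_⟩
    · intro hx1
      have : x = 1 := Subtype.ext hx1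
      rw [this, orderOf_one] at hx
      exact hp.one_lt.ne hx
    · rw [pow_one, ← hx, ← Subgroup.orderOf_coe, pow_orderOf_eq_one]
    · exact (Helper69.mem_cent_singleton.1 x.2)
  exact counting P hab hnpc hcomm
    (fun s hs hs1 => le_trans (by have := hp.two_le; omega) (h3' s hs hs1))

end Cfsg.Agent.Lib.Helper19.SqFree
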