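import Mathlib
import Cfsg.Agent.Lib.Helper19.SqFree.TStar
import Cfsg.Agent.Lib.Helper9.Supersolvable
import Cfsg.Agent.Lib.Helper9.Supersolvable2
import Cfsg.Agent.Lib.Helper9.Supersolvable7
import Cfsg.Agent.Lib.Helper1.Cores
import Cfsg.Agent.Lib.Helper1.Fitting

/-!
# Groups with square-free class sizes: the structure theorem
-/

namespace Cfsg.Agent.Lib.Helper19.SqFree

open Subgroup Cfsg Cfsg.Agent.Lib
open scoped commutatorElement

universe u

theorem SF.hyp {G : Type*} [Group G] [Finite G] (h : SF G) {p : ℕ} (hp : p.Prime)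
    (hmin : p = (Nat.card G).minFac) : Hyp p G :=
  ⟨fun r hr hd => hmin ▸ Nat.minFac_le_of_dvd hr.two_le hd, fun y _ => h.not_sq_dvd hp y⟩

theorem SF.solvable : ∀ (n : ℕ) (G : Type u) [Group G] [Finite G], Nat.card G = n → SF G →
    Group.IsSolvable G := by
  intro n
  induction n using Nat.strong_induction_on with
  | _ n ih =>
  intro G _ _ hn h
  rcases subsingleton_or_nontrivial G with hsub | hnt
  · infer_instance
  have h1 : Nat.card G ≠ 1 := (Finite.one_lt_card).ne'
  have hp : ((Nat.card G).minFac).Prime := Nat.minFac_prime h1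
  haveI : Fact ((Nat.card G).minFac).Prime := ⟨hp⟩
  have h2 := tstar _ n G hn (h.hyp hp rfl)
  rw [Lead.hasNormalPComplement_iff] at h2
  obtain ⟨K, hK, hc, k, hk⟩ := h2
  haveI := hK
  have hKtop : K ≠ ⊤ := by
    intro e
    rw [e, card_top] at hc
    exact (Nat.Prime.coprime_iff_not_dvd hp).1 hc.symm (Nat.minFac_dvd _)
  haveI : Group.IsSolvable K := ih _ (hn ▸ card_lt_of_ne_top K hKtop) K rfl (h.subgroup K)
  haveI : Group.IsSolvable (G ⧸ K) := by
    have : IsPGroup (Nat.card G).minFac (G ⧸ K) := IsPGroup.of_card (n := k) hk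
    haveI := this.isNilpotent
    infer_instance
  exact solvable_of_ker_le_range K.subtype (QuotientGroup.mk' K) (by simp)

theorem SF.supersolvable : ∀ (n : ℕ) (G : Type u) [Group G] [Finite G], Nat.card G = n → SF G →
    IsSupersolvable G := by
  intro n
  induction n using Nat.strong_induction_on with
  | _ n ih =>
  intro G _ _ hn h
  rcases subsingleton_or_nontrivial G with hsub | hnt
  · exact Helper9.isSupersolvable_of_isNilpotent
  obtain ⟨N, hN, -, hpr⟩ := exists_normal_prime_card_le (SF.solvable n G hn h) h ⊤ top_ne_bot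
  haveI := hN
  haveI : Fact (Nat.card N).Prime := ⟨hpr⟩
  haveI : IsCyclic N := isCyclic_of_prime_card rfl
  have hNbot : N ≠ ⊥ := by
    intro e
    rw [e, card_bot] at hpr
    exact Nat.not_prime_one hpr
  exact Helper9.isSupersolvable_of_cyclic_normal N
    (ih _ (hn ▸ card_quot_lt N hNbot) (G ⧸ N) rfl (h.quotient N))

theorem card_commutator_quotient {G : Type*} [Group G] [Finite G] (N : Subgroup G) [N.Normal]
    (hN : N ≤ commutator G) :
    Nat.card (commutator (G ⧸ N)) * Nat.card N = Nat.card (commutator G) := by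
  have h1 : commutator (G ⧸ N) = (commutator G).map (QuotientGroup.mk' N) := by
    rw [commutator_def, commutator_def, map_commutator, ← MonoidHom.range_eq_map,
      MonoidHom.range_eq_top.2 (QuotientGroup.mk'_surjective N)]
  have h2 : (commutator (G ⧸ N)).index = (commutator G).index := by
    rw [h1, index_map, QuotientGroup.ker_mk', sup_eq_left.2 hN,
      MonoidHom.range_eq_top.2 (QuotientGroup.mk'_surjective N), index_top, mul_one]
  have h3 := card_mul_index (commutator (G ⧸ N))
  have h4 := card_mul_index (commutator G)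
  have h5 := card_eq_card_quotient_mul_card_subgroup N
  have h6 : 0 < (commutator G).index := Nat.pos_of_ne_zero (index_ne_zero_of_finite)
  rw [h2] at h3
  have : Nat.card (commutator (G ⧸ N)) * Nat.card N * (commutator G).index =
      Nat.card (commutator G) * (commutator G).index := by
    rw [h4, h5, ← h3]; ring
  exact Nat.eq_of_mul_eq_mul_right h6 this

theorem SF.not_sq_dvd_card_commutator (p : ℕ) [Fact p.Prime] :
    ∀ (n : ℕ) (G : Type u) [Group G] [Finite G], Nat.card G = n → SF G →
    ¬ p ^ 2 ∣ Nat.card (commutator G) := by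
  intro n
  induction n using Nat.strong_induction_on with
  | _ n ih =>
  intro G _ _ hn h hd
  obtain ⟨k, hk⟩ := hd
  by_cases hk1 : k = 1
  · rw [hk1, mul_one] at hk
    exact core_false h hk
  have hr : (k.minFac).Prime := Nat.minFac_prime hk1
  haveI : Fact (k.minFac).Prime := ⟨hr⟩
  haveI : Group.IsNilpotent (commutator G) :=
    Helper9.isNilpotent_commutator (SF.supersolvable n G hn h)
  let Rr : Sylow k.minFac (commutator G) := default
  haveI hRn : (Rr : Subgroup (commutator G)).Normal :=
    Sylow.normal_of_normalizerCondition normalizerCondition_of_isNilpotent Rr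
  haveI : (Rr : Subgroup (commutator G)).Characteristic := Sylow.characteristic_of_normal Rr hRn
  haveI hRG : ((Rr : Subgroup (commutator G)).map (commutator G).subtype).Normal :=
    ConjAct.normal_of_characteristic_of_normal
  have hRbot : (Rr : Subgroup (commutator G)).map (commutator G).subtype ≠ ⊥ := by
    intro e
    have := (map_eq_bot_iff_of_injective _ (subtype_injective _)).1 e
    exact Rr.ne_bot_of_dvd_card (hk ▸ (Nat.minFac_dvd k).mul_left _) this
  obtain ⟨N, hN, hNR, hpr⟩ := exists_normal_prime_card_le (SF.solvable n G hn h) h _ hRbot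
  haveI := hN
  have hNG' : N ≤ commutator G := hNR.trans (map_subtype_le _)
  have hNcard : Nat.card N = k.minFac := by
    have h1 : Nat.card N ∣ Nat.card ((Rr : Subgroup (commutator G)).map (commutator G).subtype) :=
      card_dvd_of_le hNR
    rw [card_map_of_injective (subtype_injective _)] at h1
    obtain ⟨j, hj⟩ := Rr.2.exists_card_eq
    have hj' : Nat.card (Rr : Subgroup (commutator G)) = k.minFac ^ j := hj
    rw [hj'] at h1
    exact (Nat.prime_dvd_prime_iff_eq hpr hr).1 (hpr.dvd_of_dvd_pow h1)
  have hNbot : N ≠ ⊥ := by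
    intro e
    rw [e, card_bot] at hpr
    exact Nat.not_prime_one hpr
  have h1 := card_commutator_quotient N hNG'
  apply ih _ (hn ▸ card_quot_lt N hNbot) (G ⧸ N) rfl (h.quotient N)
  obtain ⟨c, hc⟩ := Nat.minFac_dvd k
  refine ⟨c, ?_⟩
  rw [hNcard, hk] at h1
  have h2 : Nat.card (commutator (G ⧸ N)) * k.minFac = p ^ 2 * c * k.minFac := by
    rw [h1]; conv_lhs => rw [hc]
    ring
  exact Nat.eq_of_mul_eq_mul_right hr.pos h2

theorem ucs_two_eq_top {H : Type*} [Group H]
    (h : ∀ a b c : H, (a * b * a⁻¹ * b⁻¹) * c = c * (a * b * a⁻¹ * b⁻¹)) :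
    Subgroup.upperCentralSeries H 2 = ⊤ := by
  rw [eq_top_iff]
  intro a _
  rw [Subgroup.mem_upperCentralSeries_succ_iff]
  intro b
  rw [Subgroup.upperCentralSeries_one, mem_center_iff]
  intro c
  exact (h a b c).symm

theorem isNilpotent_of_class_two {H : Type*} [Group H]
    (h : ∀ a b c : H, (a * b * a⁻¹ * b⁻¹) * c = c * (a * b * a⁻¹ * b⁻¹)) :
    Group.IsNilpotent H := ⟨⟨2, ucs_two_eq_top h⟩⟩

/-- in a nilpotent group, an element of square-free order generating a normal subgroup is
central -/
theorem mem_center_of_normal_zpowers {H : Type*} [Group H] [hH : Group.IsNilpotent H] (t : H)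
    (hn : (zpowers t).Normal) (hsq : Squarefree (orderOf t)) : t ∈ center H := by
  rw [mem_center_iff]
  intro c
  obtain ⟨j, hj⟩ : ∃ j : ℤ, t ^ j = c * t * c⁻¹ := mem_zpowers_iff.1 (hn.conj_mem t (mem_zpowers t) c)
  obtain ⟨k, hk⟩ := Subgroup.nilpotent_iff_lowerCentralSeries.1 hH
  have hconj : ∀ e : ℤ, c * t ^ e * c⁻¹ = t ^ (j * e) := by
    intro e
    have : c * t ^ e * c⁻¹ = (c * t * c⁻¹) ^ e := by
      rw [conj_zpow]
    rw [this, ← hj, ← zpow_mul]
  have key : ∀ i : ℕ, t ^ ((j - 1) ^ i) ∈ (⊤ : Subgroup H).lowerCentralSeries i := by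
    intro i
    induction i with
    | zero => simp
    | succ i ih =>
      have h1 : ⁅t ^ ((j - 1) ^ i), c⁻¹⁆ ∈ (⊤ : Subgroup H).lowerCentralSeries (i + 1) :=
        commutator_mem_commutator ih (mem_top _)
      have h2 : ⁅c, t ^ ((j - 1) ^ i)⁆ ∈ (⊤ : Subgroup H).lowerCentralSeries (i + 1) := by
        have h3 : ⁅t ^ ((j - 1) ^ i), c⁆ ∈ (⊤ : Subgroup H).lowerCentralSeries (i + 1) :=
          commutator_mem_commutator ih (mem_top _)
        have := ((⊤ : Subgroup H).lowerCentralSeries (i + 1)).inv_mem h3
        rwa [commutatorElement_inv] at this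
      have h3 : ⁅c, t ^ ((j - 1) ^ i)⁆ = t ^ ((j - 1) ^ (i + 1)) := by
        rw [commutatorElement_def, hconj, ← zpow_neg, ← zpow_add]
        congr 1
        ring
      rwa [h3] at h2
  have h1 := key k
  rw [hk, mem_bot] at h1
  have h2 : (orderOf t : ℤ) ∣ (j - 1) ^ k := orderOf_dvd_iff_zpow_eq_one.2 h1
  have h3 : (orderOf t : ℤ) ∣ j - 1 := by
    by_cases hk0 : k = 0
    · rw [hk0, pow_zero] at h2
      exact h2.trans (one_dvd _)
    · exact (Squarefree.dvd_pow_iff_dvd (Int.squarefree_natCast.2 hsq) hk0).1 h2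
  have h4 : t ^ (j - 1) = 1 := orderOf_dvd_iff_zpow_eq_one.1 h3
  have h5 : t ^ j = t := by
    have : t ^ j = t ^ (j - 1) * t := by rw [← zpow_add_one]; congr 1; ring
    rw [this, h4, one_mul]
  rw [h5] at hj
  calc c * t = (c * t * c⁻¹) * c := by group
    _ = t * c := by rw [← hj]

theorem main {G : Type u} [Group G] [Finite G] (h : SF G) :
    Cfsg.IsSupersolvable G ∧ (Cfsg.fittingSubgroup G).Normal ∧
    (∀ _h : (Cfsg.fittingSubgroup G).Normal, IsCyclic (G ⧸ Cfsg.fittingSubgroup G) ∧
      Squarefree (Cfsg.fittingSubgroup G).index) ∧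
    IsCyclic (commutator G) ∧ Squarefree (Nat.card (commutator G)) ∧
    Subgroup.upperCentralSeries ↥(Cfsg.fittingSubgroup G) 2 = ⊤ ∧
    commutator ↥(commutator G) = ⊥ := by
  have hss := SF.supersolvable _ G rfl h
  haveI hnil : Group.IsNilpotent (commutator G) := Helper9.isNilpotent_commutator hss
  have hsq : Squarefree (Nat.card (commutator G)) := by
    rw [Nat.squarefree_iff_prime_squarefree]
    intro p hp hd
    haveI : Fact p.Prime := ⟨hp⟩
    exact SF.not_sq_dvd_card_commutator p _ G rfl h (by rwa [sq])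
  haveI hcyc : IsCyclic (commutator G) := isCyclic_of_nilpotent_squarefree hsq
  obtain ⟨x, hx⟩ := (Subgroup.isCyclic_iff_exists_zpowers_eq_top (commutator G)).1 hcyc
  have hxG' : x ∈ commutator G := hx ▸ mem_zpowers x
  have hmem : ∀ g ∈ commutator G, ∃ i : ℤ, x ^ i = g := fun g hg =>
    mem_zpowers_iff.1 (hx ▸ hg)
  have hord : orderOf x = Nat.card (commutator G) := by
    rw [← Nat.card_zpowers, hx]
  have hcomm_mem : ∀ a b : G, a * b * a⁻¹ * b⁻¹ ∈ commutator G := fun a b =>
    commutator_mem_commutator (mem_top a) (mem_top b)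
  haveI hFn : (fittingSubgroup G).Normal := Helper1.fittingSubgroup_normal
  haveI hFnil : Group.IsNilpotent (fittingSubgroup G) := Helper1.fittingSubgroup_isNilpotent
  have hG'F : commutator G ≤ fittingSubgroup G := Helper1.le_fittingSubgroup inferInstance hnil
  -- `x` is central in `F`
  have hxF : x ∈ fittingSubgroup G := hG'F hxG'
  have hxc : (⟨x, hxF⟩ : fittingSubgroup G) ∈ center (fittingSubgroup G) := by
    apply mem_center_of_normal_zpowers
    · constructor
      intro n hn g
      obtain ⟨i, hi⟩ := mem_zpowers_iff.1 hn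
      have h1 : (g : G) * (n : G) * (g : G)⁻¹ ∈ commutator G := by
        apply (inferInstance : (commutator G).Normal).conj_mem
        rw [← hi]
        exact (commutator G).zpow_mem hxG' i
      obtain ⟨j, hj⟩ := hmem _ h1
      rw [mem_zpowers_iff]
      exact ⟨j, Subtype.ext (by simpa using hj)⟩
    · have : orderOf (⟨x, hxF⟩ : fittingSubgroup G) = orderOf x := by
        rw [← Subgroup.orderOf_coe]
      rw [this, hord]
      exact hsq
  have hxcomm : ∀ c ∈ fittingSubgroup G, c * x = x * c := by
    intro c hc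
    have := mem_center_iff.1 hxc ⟨c, hc⟩
    exact congrArg Subtype.val this
  have hG'comm : ∀ g ∈ commutator G, ∀ c ∈ fittingSubgroup G, g * c = c * g := by
    intro g hg c hc
    obtain ⟨i, rfl⟩ := hmem g hg
    exact ((Commute.zpow_right (hxcomm c hc) i).eq).symm
  -- the centraliser of `x`
  have hCF : centralizer ({x} : Set G) ≤ fittingSubgroup G := by
    have hCeq : centralizer ({x} : Set G) = centralizer (commutator G : Set G) := by
      apply le_antisymm
      · intro c hc
        rw [Helper69.mem_cent_singleton] at hc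
        rw [mem_centralizer_iff]
        intro g hg
        obtain ⟨i, rfl⟩ := hmem g hg
        exact ((Commute.zpow_right hc i).eq).symm
      · exact centralizer_le (by simpa using hxG')
    have hCn : (centralizer ({x} : Set G)).Normal := by
      rw [hCeq]; infer_instance
    apply Helper1.le_fittingSubgroup hCn
    apply isNilpotent_of_class_two
    intro a b c
    apply Subtype.ext
    have h1 := hcomm_mem (a : G) (b : G)
    have h2 : (c : G) ∈ centralizer (commutator G : Set G) := hCeq ▸ c.2
    have := mem_centralizer_iff.1 h2 _ h1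
    simpa using this
  have hidx : Squarefree (fittingSubgroup G).index :=
    (h x).squarefree_of_dvd (index_dvd_of_le hCF)
  refine ⟨hss, hFn, fun _ => ⟨?_, hidx⟩, hcyc, hsq, ?_, ?_⟩
  · haveI : Group.IsNilpotent (G ⧸ fittingSubgroup G) := by
      apply isNilpotent_of_class_two
      intro a b c
      induction a using QuotientGroup.induction_on with
      | H a =>
      induction b using QuotientGroup.induction_on with
      | H b =>
      have : ((a * b * a⁻¹ * b⁻¹ : G) : G ⧸ fittingSubgroup G) = 1 :=
        (QuotientGroup.eq_one_iff _).2 (hG'F (hcomm_mem a b))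
      have h2 : (a : G ⧸ fittingSubgroup G) * b * (a : G ⧸ fittingSubgroup G)⁻¹ *
          (b : G ⧸ fittingSubgroup G)⁻¹ = 1 := by
        rw [← this]; rfl
      rw [h2, one_mul, mul_one]
    exact isCyclic_of_nilpotent_squarefree hidx
  · apply ucs_two_eq_top
    intro a b c
    apply Subtype.ext
    have := hG'comm _ (hcomm_mem (a : G) (b : G)) c c.2
    simpa using this
  · rw [_root_.commutator_def (commutator G), commutator_eq_bot_iff_le_centralizer]
    intro a _
    rw [mem_centralizer_iff]
    intro b _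
    apply Subtype.ext
    have := hG'comm (b : G) b.2 (a : G) (hG'F a.2)
    simpa using this

end Cfsg.Agent.Lib.Helper19.SqFree
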